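import Cfsg.Agent.S2283

set_option autoImplicit false

/-!
# SUG (S2412): passage from `SU` to `PSU`, and the case `n = 3`, `q ≥ 3` from S2283
-/

namespace Cfsg.Agent.Lib.Helper40.SUG

open Cfsg

universe u

/-- Two generators of `SU_n(q)` give two generators of `PSU_n(q)`. -/
theorem psu_of_su {F : Type u} [Field F] {n q : ℕ} (x y : ↥(Cfsg.SU n F q))
    (h : Subgroup.closure ({x, y} : Set ↥(Cfsg.SU n F q)) = ⊤) :
    ∃ a b : Cfsg.PSU n F q, Subgroup.closure ({a, b} : Set (Cfsg.PSU n F q)) = ⊤ := by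
  refine ⟨QuotientGroup.mk' (Subgroup.center ↥(Cfsg.SU n F q)) x,
    QuotientGroup.mk' (Subgroup.center ↥(Cfsg.SU n F q)) y, ?_⟩
  have h1 := MonoidHom.map_closure (QuotientGroup.mk' (Subgroup.center ↥(Cfsg.SU n F q)))
    ({x, y} : Set ↥(Cfsg.SU n F q))
  rw [h, Subgroup.map_top_of_surjective _ (QuotientGroup.mk'_surjective _)] at h1
  rw [h1, Set.image_pair]

/-- `PSU_3(q)`, `q ≥ 3`, is generated by two elements (from S2283). -/
theorem psu3_two_gen {F : Type u} [Field F] [Fintype F] (q : ℕ) (hq : 3 ≤ q)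
    (hF : Fintype.card F = q ^ 2) :
    ∃ a b : Cfsg.PSU 3 F q, Subgroup.closure ({a, b} : Set (Cfsg.PSU 3 F q)) = ⊤ := by
  obtain ⟨u, g, -, h⟩ := Cfsg.Agent.S2283.result (F := F) q hq hF
  exact psu_of_su u (g * u * g⁻¹) h

end Cfsg.Agent.Lib.Helper40.SUG
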